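import Mathlib
import Cfsg.Agent.Lib.Helper69.BG40.Defs
import Cfsg.Agent.Lib.Helper35.BG.Hall
import Cfsg.Agent.Lib.Helper46.BG.S1414Core
import Cfsg.Agent.Lib.Helper24.PRank

/-!
Package PKB of the S1440 project (helper69): the maximal subgroup `N` over `C_G(x)` and the
local data `Loc M p x (M ⊓ N)`.
-/

set_option autoImplicit false

namespace Cfsg.Agent.Lib.Helper59.BG40

universe u

open Cfsg

/-- primes of a complement of `N_σ` in `N` are outside `σ(N)`. -/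
theorem compl_sigma_free {G : Type u} [Group G] [Finite G] (hG : Cfsg.IsMinSimpleOddOrder G)
    (h1350 : type_of% (@Cfsg.CfsgFrozen.S1350 G _ _ hG))
    {N D : Subgroup G} (hN : IsCoatom N) (hc : IsComplIn D (sigmaCore N) N)
    {B : Subgroup G} (hB : B ≤ D) {q : ℕ} (hq : q.Prime) (hdvd : q ∣ Nat.card ↥B) :
    q ∉ sigma N := by
  intro hqσ
  have h1 := (h1350 N hN).1.2.2 q hq hqσ
  rw [Cfsg.Agent.Lib.Helper35.BG.relIndex_right_of_isComplIn hc] at h1
  exact h1 (hdvd.trans (Subgroup.card_dvd_of_le hB))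

/-- a complement of `N_σ` in `N` has rank at most `2`. -/
theorem compl_rank_le_two {G : Type u} [Group G] [Finite G] (hG : Cfsg.IsMinSimpleOddOrder G)
    (h1350 : type_of% (@Cfsg.CfsgFrozen.S1350 G _ _ hG))
    (h1405 : type_of% (@Cfsg.CfsgFrozen.S1405 G _ _ hG))
    {N D : Subgroup G} (hN : IsCoatom N) (hc : IsComplIn D (sigmaCore N) N)
    {q : ℕ} (hq : q.Prime) {A : Subgroup G} (hA : A ≤ D) (hAe : IsElementaryAbelian q A) :
    Nat.card ↥A ≤ q ^ 2 := by
  by_contra hlt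
  have hAN : A ≤ N := hA.trans hc.1
  have hα : q ∈ alpha N := by
    refine ⟨hq, fun hr => hlt ?_⟩
    exact (Cfsg.Agent.Lib.Helper24.pRankLE_subgroup_iff q 2 N).mp hr A hAN
      (Cfsg.Agent.Lib.Helper35.BG.isMulCommutative_subgroup_iff.mp hAe.1) hAe.2
  have hσ : q ∈ sigma N := Cfsg.Agent.Lib.Helper46.BG.mem_sigma_of_mem_alpha hG h1405 hN hα
  have hA1 : Nat.card ↥A ≠ 1 := by
    intro h1
    apply hlt
    rw [h1]
    exact Nat.one_le_pow _ _ hq.pos
  have hdvd : q ∣ Nat.card ↥A := by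
    obtain ⟨r, hr, hrd⟩ := Nat.exists_prime_and_dvd hA1
    have : Fact r.Prime := ⟨hr⟩
    obtain ⟨a, ha⟩ := exists_prime_orderOf_dvd_card' (G := ↥A) r hrd
    have h1 : a ^ q = 1 := by
      apply Subtype.ext
      simpa using hAe.2 a a.2
    have h2 : orderOf a ∣ q := orderOf_dvd_of_pow_eq_one h1
    rw [ha] at h2
    have : r = q := (Nat.prime_dvd_prime_iff_eq hr hq).mp h2
    rw [← this]
    exact hrd
  exact compl_sigma_free hG h1350 hN hc hA hq hdvd hσ

theorem pkB : Cfsg.Agent.Lib.Helper69.BG40.PKB.{u} := by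
  intro G _ _ hG h1350 h1375 h1405 h1420 M hM p hp hpσ x hxσ hxF hxo hnc
  have hx1 : x ≠ 1 := by
    rintro rfl
    rw [orderOf_one] at hxo
    exact hp.one_lt.ne hxo
  obtain ⟨N, ⟨hN, hCN⟩, -, -, -, -, hcompl, -⟩ := h1375 M hM x hxσ hx1 hnc
  refine ⟨N, hN, hcompl, ?_⟩
  refine ⟨hp, hpσ, hxσ, hxF, hxo, hnc, ?_, ?_, ?_⟩
  · exact inf_le_inf_left M hCN
  · intro B hB hnil
    exact (h1420 N hN (M ⊓ N) hcompl).1 B (hB.trans inf_le_right) hnil
      (fun q hq hd => compl_sigma_free hG h1350 hN hcompl hB hq hd)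
  · intro q hq A hA hAe
    exact compl_rank_le_two hG h1350 h1405 hN hcompl hq hA hAe

end Cfsg.Agent.Lib.Helper59.BG40
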