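import Mathlib
import Cfsg.Agent.Lib.Helper69.BG40.Defs
import Cfsg.Agent.Lib.Helper59.BG40.PKB

/-!
Package PKB2 of the S1440 project (helper69): nonabelian Sylow `p`-subgroups and an elementary
abelian `p ^ 2` in `D = M ∩ N` force `τ₂(N) = {p}`, so `D` has `q`-rank `≤ 1` for `q ≠ p`.
-/

set_option autoImplicit false

namespace Cfsg.Agent.Lib.Helper59.BG40

universe u

open Cfsg

/-- a nontrivial elementary abelian `q`-group has order divisible by `q`. -/
theorem dvd_card_of_elemAb {G : Type u} [Group G] [Finite G] {q : ℕ} (hq : q.Prime)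
    {A : Subgroup G} (hAe : IsElementaryAbelian q A) (hA1 : Nat.card ↥A ≠ 1) :
    q ∣ Nat.card ↥A := by
  obtain ⟨r, hr, hrd⟩ := Nat.exists_prime_and_dvd hA1
  have : Fact r.Prime := ⟨hr⟩
  obtain ⟨a, ha⟩ := exists_prime_orderOf_dvd_card' (G := ↥A) r hrd
  have h1 : a ^ q = 1 := by
    apply Subtype.ext
    simpa using hAe.2 a a.2
  have h2 : orderOf a ∣ q := orderOf_dvd_of_pow_eq_one h1
  rw [ha] at h2
  have : r = q := (Nat.prime_dvd_prime_iff_eq hr hq).mp h2
  rw [← this]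
  exact hrd

/-- a prime `q` for which a complement `D` of `N_σ` has an elementary abelian `q`-subgroup of order
`> q` lies in `τ₂(N)`. -/
theorem mem_tau2_of_compl {G : Type u} [Group G] [Finite G] (hG : Cfsg.IsMinSimpleOddOrder G)
    (h1350 : type_of% (@Cfsg.CfsgFrozen.S1350 G _ _ hG))
    (h1405 : type_of% (@Cfsg.CfsgFrozen.S1405 G _ _ hG))
    {N D : Subgroup G} (hN : IsCoatom N) (hc : IsComplIn D (sigmaCore N) N)
    {q : ℕ} (hq : q.Prime) {A : Subgroup G} (hA : A ≤ D) (hAe : IsElementaryAbelian q A)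
    (hAc : q < Nat.card ↥A) : q ∈ tau2 N := by
  have hAN : A ≤ N := hA.trans hc.1
  have hA1 : Nat.card ↥A ≠ 1 := by
    intro h
    rw [h] at hAc
    exact absurd hAc (not_lt.mpr hq.one_lt.le)
  have hqσ : q ∉ sigma N :=
    compl_sigma_free hG h1350 hN hc hA hq (dvd_card_of_elemAb hq hAe hA1)
  refine ⟨hq, hqσ, ?_, ?_⟩
  · by_contra hr
    exact hqσ (Cfsg.Agent.Lib.Helper46.BG.mem_sigma_of_mem_alpha hG h1405 hN ⟨hq, hr⟩)
  · intro hr
    have h1 := (Cfsg.Agent.Lib.Helper24.pRankLE_subgroup_iff q 1 N).mp hr A hAN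
      (Cfsg.Agent.Lib.Helper35.BG.isMulCommutative_subgroup_iff.mp hAe.1) hAe.2
    rw [pow_one] at h1
    exact absurd hAc (not_lt.mpr h1)

theorem pkB2 : Cfsg.Agent.Lib.Helper69.BG40.PKB2.{u} := by
  intro G _ _ hG h1350 h1405 h1419 M N hM hN hc p hpF hS A hA hAe hA2 q hq hqp B hB hBe
  have hp : p.Prime := hpF.out
  have hpt : p ∈ tau2 N := by
    apply mem_tau2_of_compl hG h1350 h1405 hN hc hp hA hAe
    rw [hA2]
    calc p = p ^ 1 := (pow_one p).symm
      _ < p ^ 2 := Nat.pow_lt_pow_right hp.one_lt (by norm_num)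
  have h2 := (h1419 N hN (M ⊓ N) hc p hpt hS A ⟨hA, hAe, hA2⟩).1
  by_contra hlt
  have hqt : q ∈ tau2 N :=
    mem_tau2_of_compl hG h1350 h1405 hN hc hq hB hBe (not_le.mp hlt)
  rw [h2] at hqt
  exact hqp hqt

end Cfsg.Agent.Lib.Helper59.BG40
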